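/-
Kernel-evaluated certificates about centralisers in `J₁`.
-/
import Cfsg.Agent.Janko1.AutChecks
import Cfsg.Agent.Janko1.SpecData

set_option autoImplicit false

namespace Cfsg.Agent.Janko1

/-- The conjugates by the point stabiliser are correct. -/
def hConjTest (g : M7) (a : ℕ → M7) (k : ℕ) : Bool :=
  okM (a k) && M7.beq (mulM (hMatAt k) g) (mulM (a k) (hMatAt k))

/-- The conjugates by coset representatives are correct. -/
def tConjTest (g : M7) (b : ℕ → M7) (i : ℕ) : Bool :=
  okM (b i) && M7.beq (mulM g (tMatAt i)) (mulM (tMatAt i) (b i))

/-- Elements of a coset commuting with `g` are powers of `g`. -/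
def scanTest (g : M7) (q : ℕ) (a b : ℕ → M7) (i : ℕ) : Bool :=
  allFrom (fun k => !M7.beq (b i) (a k) ||
    anyFrom (fun m => M7.beq (mulM (tMatAt i) (hMatAt k)) (powM g m)) 0 q) 0 660

set_option maxRecDepth 10000

theorem hConj7_ok : allFrom (hConjTest elS hConj7At) 0 660 = true := by decide +kernel
theorem tConj7_ok : allFrom (tConjTest elS tConj7At) 0 266 = true := by decide +kernel
theorem hConj11_ok : allFrom (hConjTest el11 hConj11At) 0 660 = true := by decide +kernel
theorem tConj11_ok : allFrom (tConjTest el11 tConj11At) 0 266 = true := by decide +kernel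
theorem hConj19_ok : allFrom (hConjTest el19 hConj19At) 0 660 = true := by decide +kernel
theorem tConj19_ok : allFrom (tConjTest el19 tConj19At) 0 266 = true := by decide +kernel

theorem scan7_ok : allFrom (scanTest elS 7 hConj7At tConj7At) 0 266 = true := by decide +kernel

theorem scan11_ok : allFrom (scanTest el11 11 hConj11At tConj11At) 0 266 = true := by decide +kernel

theorem scan19_ok : allFrom (scanTest el19 19 hConj19At tConj19At) 0 266 = true := by decide +kernel

/-- No element of the centraliser of the involution has order fifteen. -/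
theorem cent_no15 : allFrom (fun i => !M7.beq (powM (centAt i) 15) oneM ||
    M7.beq (powM (centAt i) 3) oneM || M7.beq (powM (centAt i) 5) oneM) 0 120 = true := by
  decide +kernel

theorem cent_six : (M7.beq (powM (centAt 62) 6) oneM && !M7.beq (powM (centAt 62) 3) oneM &&
    !M7.beq (powM (centAt 62) 2) oneM) = true := by decide +kernel

theorem cent_ten : (M7.beq (powM (centAt 63) 10) oneM && !M7.beq (powM (centAt 63) 5) oneM &&
    !M7.beq (powM (centAt 63) 2) oneM) = true := by decide +kernel

theorem pair_fifteen : (!M7.beq (powM (word2 genF elS [false, true]) 5) oneM &&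
    !M7.beq (powM (word2 genF elS [false, true]) 3) oneM) = true := by decide +kernel

end Cfsg.Agent.Janko1
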