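/-
The element orders of `J₁`.
-/
import Cfsg.Agent.Janko1.Aut
import Cfsg.Agent.Janko1.SpecChecks

set_option autoImplicit false

namespace Cfsg.Agent.Janko1

theorem rep_conj {h g : J} {A B C : M7} (hh : Rep h A) (hg : Rep g B) (hC : okM C = true)
    (e : M7.beq (mulM A B) (mulM C A) = true) : Rep (h * g * h⁻¹) C := by
  refine ⟨?_, hC⟩
  have hm := (hh.mul hg).1
  rw [M7.eq_of_beq e, toMat_mulM hC hh.2, ← hh.1, Subgroup.coe_mul, Units.val_mul] at hm
  rw [Subgroup.coe_mul, Units.val_mul, Subgroup.coe_mul, Units.val_mul, hm, Subgroup.coe_inv,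
    Units.mul_inv_cancel_right]

theorem rep_conj' {h g : J} {A B C : M7} (hh : Rep h A) (hg : Rep g B) (hC : okM C = true)
    (e : M7.beq (mulM B A) (mulM A C) = true) : Rep (h⁻¹ * g * h) C := by
  refine ⟨?_, hC⟩
  have hm := (hg.mul hh).1
  rw [M7.eq_of_beq e, toMat_mulM hh.2 hC, ← hh.1, Subgroup.coe_mul, Units.val_mul] at hm
  rw [mul_assoc, Subgroup.coe_mul, Units.val_mul, Subgroup.coe_mul, Units.val_mul, hm,
    Subgroup.coe_inv, Units.inv_mul_cancel_left]

theorem comm_mem_zpowers {g : J} {G : M7} (rg : Rep g G) {q : ℕ} {a b : ℕ → M7}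
    (ha : allFrom (hConjTest G a) 0 660 = true) (hb : allFrom (tConjTest G b) 0 266 = true)
    (hs : allFrom (scanTest G q a b) 0 266 = true) {x : J} (hx : x * g = g * x) :
    x ∈ Subgroup.zpowers g := by
  obtain ⟨fT, fH, rT, rH, hcov⟩ := exists_product
  obtain ⟨i, k, hi, hk, rfl⟩ := hcov x
  have h1 := allFrom_zero ha hk
  have h2 := allFrom_zero hb hi
  simp only [hConjTest, tConjTest, Bool.and_eq_true] at h1 h2
  have rA := rep_conj (rH k hk) rg h1.1 h1.2
  have rB := rep_conj' (rT i hi) rg h2.1 h2.2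
  have e : fH k * g * (fH k)⁻¹ = (fT i)⁻¹ * g * fT i := by
    calc fH k * g * (fH k)⁻¹ = (fT i)⁻¹ * (fT i * fH k * g) * (fH k)⁻¹ := by group
      _ = (fT i)⁻¹ * (g * (fT i * fH k)) * (fH k)⁻¹ := by rw [hx]
      _ = _ := by group
  have h3 := allFrom_zero (allFrom_zero hs hi) hk
  rw [rB.beq_of_eq rA e.symm, Bool.not_true, Bool.false_or] at h3
  obtain ⟨m, -, hm⟩ := anyFrom_zero h3
  rw [((rT i hi).mul (rH k hk)).eq (rg.pow m) hm]
  exact Subgroup.npow_mem_zpowers g m

theorem orderOf_eq_of_dvd_of {q : ℕ} (hq : q.Prime) (h2 : ¬ q ^ 2 ∣ 175560) {g : J}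
    (hg : orderOf g = q) (hC : ∀ x : J, x * g = g * x → x ∈ Subgroup.zpowers g)
    {x : J} (hx : q ∣ orderOf x) : orderOf x = q := by
  haveI := Fact.mk hq
  obtain ⟨y, hyd⟩ : ∃ y, y = x ^ (orderOf x / q) := ⟨_, rfl⟩
  have hy : orderOf y = q := by rw [hyd]; exact orderOf_pow_orderOf_div (orderOf_pos x).ne' hx
  have hg' : IsPGroup q (Subgroup.zpowers g) := IsPGroup.of_card (n := 1) (by rw [Nat.card_zpowers, hg, pow_one])
  have hy' : IsPGroup q (Subgroup.zpowers y) := IsPGroup.of_card (n := 1) (by rw [Nat.card_zpowers, hy, pow_one])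
  obtain ⟨P, hP⟩ := hy'.exists_le_sylow
  obtain ⟨Q, hQ⟩ := hg'.exists_le_sylow
  obtain ⟨h, hh⟩ := MulAction.exists_smul_eq J P Q
  have hQc : Nat.card (Q : Subgroup J) ≤ q := by
    obtain ⟨k, hk⟩ := IsPGroup.iff_card.mp Q.2
    rw [hk]
    refine (Nat.pow_le_pow_right hq.pos (?_ : k ≤ 1)).trans (le_of_eq (pow_one q))
    by_contra hk2
    exact h2 ((pow_dvd_pow q (by omega : 2 ≤ k)).trans
      (hk ▸ card_J ▸ Subgroup.card_subgroup_dvd_card _))
  have hQg : (Q : Subgroup J) = Subgroup.zpowers g :=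
    (Subgroup.eq_of_le_of_card_ge hQ (by rw [Nat.card_zpowers, hg]; exact hQc)).symm
  have hyQ : h * y * h⁻¹ ∈ Subgroup.zpowers g := by
    rw [← hQg, ← hh, Sylow.coe_subgroup_smul]
    exact ⟨y, hP (Subgroup.mem_zpowers y), rfl⟩
  have e : Subgroup.zpowers (h * y * h⁻¹) = Subgroup.zpowers g :=
    Subgroup.eq_of_le_of_card_ge (Subgroup.zpowers_le.2 hyQ) (by
      rw [Nat.card_zpowers, Nat.card_zpowers, hg, ← MulAut.conj_apply, MulEquiv.orderOf_eq, hy])
  have hgm : g ∈ Subgroup.zpowers (h * y * h⁻¹) := e.symm ▸ Subgroup.mem_zpowers g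
  obtain ⟨j, hj⟩ := Subgroup.mem_zpowers_iff.1 hgm
  have hc : Commute (h * x * h⁻¹) (h * y * h⁻¹) :=
    (hyd ▸ (Commute.refl x).pow_right (orderOf x / q) : Commute x y).map (MulAut.conj h).toMonoidHom
  have hxg := hC (h * x * h⁻¹) (hj ▸ (hc.zpow_right j).eq)
  have := orderOf_dvd_of_mem_zpowers hxg
  rw [hg, ← MulAut.conj_apply, MulEquiv.orderOf_eq] at this
  exact Nat.dvd_antisymm this hx

theorem not_four_dvd_orderOf (x : J) : ¬ 4 ∣ orderOf x := by
  intro h4
  obtain ⟨y, hyd⟩ : ∃ y, y = x ^ (orderOf x / 4) := ⟨_, rfl⟩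
  have hy : orderOf y = 4 := by rw [hyd]; exact orderOf_pow_orderOf_div (orderOf_pos x).ne' h4
  obtain ⟨t, u, v, g, ht, hu, hv, htu, htv, huv, -, -, -, hind, -, -⟩ := exists_four
  obtain ⟨S, hS⟩ := exists_sylow_four ht hu hv htu htv huv hind
  have hy' : IsPGroup 2 (Subgroup.zpowers y) := IsPGroup.of_card (n := 2) (by rw [Nat.card_zpowers, hy]; norm_num)
  obtain ⟨P, hP⟩ := hy'.exists_le_sylow
  obtain ⟨h, hh⟩ := MulAction.exists_smul_eq J P S
  have hm : h * y * h⁻¹ ∈ (S : Subgroup J) := by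
    rw [← hh, Sylow.coe_subgroup_smul]
    exact ⟨y, hP (Subgroup.mem_zpowers y), rfl⟩
  obtain ⟨i, j, k, e⟩ := hS _ hm
  have hc1 : Commute t (u ^ (j : ℕ) * v ^ (k : ℕ)) :=
    ((show Commute t u from htu).pow_right _).mul_right ((show Commute t v from htv).pow_right _)
  have hsq : (h * y * h⁻¹) ^ 2 = 1 := by
    rw [← e, (hc1.pow_left _).mul_pow, ((show Commute u v from huv).pow_pow _ _).mul_pow,
      ← pow_mul, ← pow_mul, ← pow_mul, mul_comm (i : ℕ), mul_comm (j : ℕ), mul_comm (k : ℕ),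
      pow_mul, pow_mul, pow_mul, sq t, sq u, sq v, ht, hu, hv]
    simp
  have h2 := orderOf_dvd_of_pow_eq_one hsq
  rw [← MulAut.conj_apply, MulEquiv.orderOf_eq, hy] at h2
  norm_num at h2

theorem elS_ne' : (!M7.beq elS oneM) = true := by decide +kernel

theorem orderOf_ne_thirty (x : J) : orderOf x ≠ 30 := by
  intro h30
  obtain ⟨t, rt, ht⟩ := exists_invol
  obtain ⟨y, hyd⟩ : ∃ y, y = x ^ 15 := ⟨_, rfl⟩
  have hy : orderOf y = 2 := by
    rw [hyd, orderOf_pow' x (by norm_num), h30]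
    norm_num
  obtain ⟨h, hh⟩ := conj_invol rt (by rw [← sq, ← hy, pow_orderOf_eq_one] : y * y = 1)
    (by intro e; rw [e, orderOf_one] at hy; norm_num at hy)
  obtain ⟨z, hzd⟩ : ∃ z, z = MulAut.conj h⁻¹ (x ^ 2) := ⟨_, rfl⟩
  have hz : orderOf z = 15 := by
    rw [hzd, MulEquiv.orderOf_eq, orderOf_pow' x (by norm_num), h30]
    norm_num
  have hzt : Commute t z := by
    have e : t = MulAut.conj h⁻¹ y := by rw [MulAut.conj_apply, ← hh]; group
    rw [e, hzd, hyd]
    exact ((Commute.refl x).pow_pow 15 2).map (MulAut.conj h⁻¹).toMonoidHom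
  obtain ⟨C, hC, hsurj⟩ := centralizer_list rt
  obtain ⟨i, hi, rfl⟩ := hsurj z hzt
  have h := allFrom_zero cent_no15 hi
  have h15 := (((hC i hi).1.pow 15)).beq_of_eq rep_one (by rw [← hz, pow_orderOf_eq_one])
  simp only [h15, Bool.not_true, Bool.false_or, Bool.or_eq_true] at h
  rcases h with e | e
  · have := orderOf_dvd_of_pow_eq_one (((hC i hi).1.pow 3).eq rep_one e)
    rw [hz] at this; norm_num at this
  · have := orderOf_dvd_of_pow_eq_one (((hC i hi).1.pow 5).eq rep_one e)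
    rw [hz] at this; norm_num at this

/-- Every element order of `J₁` is one of ten numbers. -/
theorem orderOf_mem (x : J) : orderOf x ∈ [1, 2, 3, 5, 6, 7, 10, 11, 15, 19] := by
  have h4 := not_four_dvd_orderOf x
  have h30 := orderOf_ne_thirty x
  have hd : orderOf x ∣ 175560 := card_J ▸ orderOf_dvd_natCard x
  obtain ⟨g7, r7⟩ := exists_rep (w := elSWord) (A := elS) elSWord_ok
  obtain ⟨g11, r11⟩ := exists_rep (w := el11Word) (A := el11) el11Word_ok
  obtain ⟨g19, r19⟩ := exists_rep (w := el19Word) (A := el19) el19Word_ok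
  by_cases h7 : 7 ∣ orderOf x
  · rw [orderOf_eq_of_dvd_of (by norm_num : Nat.Prime 7) (by norm_num)
      (orderOf_rep r7 (by norm_num) elS_pow elS_ne')
      (fun y hy => comm_mem_zpowers r7 hConj7_ok tConj7_ok scan7_ok hy) h7]
    simp
  by_cases h11 : 11 ∣ orderOf x
  · rw [orderOf_eq_of_dvd_of (by norm_num : Nat.Prime 11) (by norm_num)
      (orderOf_rep r11 (by norm_num) el11_pow el11_ne)
      (fun y hy => comm_mem_zpowers r11 hConj11_ok tConj11_ok scan11_ok hy) h11]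
    simp
  by_cases h19 : 19 ∣ orderOf x
  · rw [orderOf_eq_of_dvd_of (by norm_num : Nat.Prime 19) (by norm_num)
      (orderOf_rep r19 (by norm_num) el19_pow el19_ne)
      (fun y hy => comm_mem_zpowers r19 hConj19_ok tConj19_ok scan19_ok hy) h19]
    simp
  have hc : Nat.Coprime (orderOf x) 1463 := by
    have e : (1463 : ℕ) = 7 * (11 * 19) := by norm_num
    rw [e]
    exact Nat.Coprime.mul_right (((by norm_num : Nat.Prime 7).coprime_iff_not_dvd.2 h7).symm)
      (Nat.Coprime.mul_right (((by norm_num : Nat.Prime 11).coprime_iff_not_dvd.2 h11).symm)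
        (((by norm_num : Nat.Prime 19).coprime_iff_not_dvd.2 h19).symm))
  have h120 : orderOf x ∣ 120 := hc.dvd_of_dvd_mul_right (show orderOf x ∣ 120 * 1463 from hd)
  have hmem : orderOf x ∈ Nat.divisors 120 := Nat.mem_divisors.2 ⟨h120, by norm_num⟩
  revert h4 h30 hmem
  generalize orderOf x = o
  intro h4 h30 hmem
  have key : ∀ o ∈ Nat.divisors 120, ¬ 4 ∣ o → o ≠ 30 → o ∈ [1, 2, 3, 5, 6, 7, 10, 11, 15, 19] := by
    decide +kernel
  exact key o hmem h4 h30

/-- Each of the six maximal numbers is an element order. -/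
theorem exists_orderOf : ∀ n ∈ [6, 10, 15, 7, 11, 19], ∃ x : J, orderOf x = n := by
  obtain ⟨t, rt, -⟩ := exists_invol
  obtain ⟨C, hC, -⟩ := centralizer_list rt
  obtain ⟨g7, r7⟩ := exists_rep (w := elSWord) (A := elS) elSWord_ok
  obtain ⟨g11, r11⟩ := exists_rep (w := el11Word) (A := el11) el11Word_ok
  obtain ⟨g19, r19⟩ := exists_rep (w := el19Word) (A := el19) el19Word_ok
  have key : ∀ {x : J} {A : M7} (n : ℕ) (l : List ℕ), Rep x A → 0 < n →
      M7.beq (powM A n) oneM = true → (∀ d, d ∣ n → d = n ∨ ∃ m ∈ l, d ∣ m) →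
      (∀ m ∈ l, (!M7.beq (powM A m) oneM) = true) → orderOf x = n := by
    intro x A n l rx hn h1 hdiv hne
    rcases hdiv _ (orderOf_dvd_of_pow_eq_one ((rx.pow n).eq rep_one h1)) with h | ⟨m, hm, h⟩
    · exact h
    · exact absurd (orderOf_dvd_iff_pow_eq_one.1 h) ((rx.pow m).ne rep_one (hne m hm))
  intro n hn
  fin_cases hn
  · have h := cent_six
    simp only [Bool.and_eq_true] at h
    refine ⟨C 62, key 6 [3, 2] (hC 62 (by norm_num)).1 (by norm_num) h.1.1 ?_ (by
      intro m hm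
      fin_cases hm
      · exact h.1.2
      · exact h.2)⟩
    intro d hd
    have : d ≤ 6 := Nat.le_of_dvd (by norm_num) hd
    interval_cases d <;> simp at hd ⊢
  · have h := cent_ten
    simp only [Bool.and_eq_true] at h
    refine ⟨C 63, key 10 [5, 2] (hC 63 (by norm_num)).1 (by norm_num) h.1.1 ?_ (by
      intro m hm
      fin_cases hm
      · exact h.1.2
      · exact h.2)⟩
    intro d hd
    have : d ≤ 10 := Nat.le_of_dvd (by norm_num) hd
    interval_cases d <;> simp at hd ⊢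
  · have h := pair_fifteen
    simp only [Bool.and_eq_true] at h
    have h15 : M7.beq (powM (word2 genF elS [false, true]) 15) oneM = true := by
      have hr := rel_ok
      simp only [relTest, Bool.and_eq_true] at hr
      exact hr.1.1.2
    have hF := genF_ok
    simp only [Bool.and_eq_true, Nat.blt_eq] at hF
    have rF : Rep (C genFIdx) genF := M7.eq_of_beq hF.1.1.1 ▸ (hC _ hF.2).1
    obtain ⟨x, rx, -⟩ := word2_map (MulEquiv.refl J) rF r7 rF r7 rfl rfl [false, true]
    refine ⟨x, key 15 [5, 3] rx (by norm_num) h15 ?_ (by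
      intro m hm
      fin_cases hm
      · exact h.1
      · exact h.2)⟩
    intro d hd
    have : d ≤ 15 := Nat.le_of_dvd (by norm_num) hd
    interval_cases d <;> simp at hd ⊢
  · exact ⟨g7, orderOf_rep r7 (by norm_num) elS_pow elS_ne'⟩
  · exact ⟨g11, orderOf_rep r11 (by norm_num) el11_pow el11_ne⟩
  · exact ⟨g19, orderOf_rep r19 (by norm_num) el19_pow el19_ne⟩

end Cfsg.Agent.Janko1
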