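/-
Groups with the element orders of `J₁ × J₁ × J₁ × J₁`: a module of a cyclic group of order 6270 in
characteristic seven, whose faithful generator has no nonzero fixed point.
-/
import Cfsg.Agent.Janko1.Spectrum
import Mathlib.Algebra.BigOperators.GroupWithZero.Finset
import Mathlib.Algebra.Field.ZMod
import Mathlib.GroupTheory.SemidirectProduct
import Mathlib.GroupTheory.SpecificGroups.Cyclic

set_option autoImplicit false

namespace Cfsg.Agent.Janko1

theorem dvd_maximal {d : ℕ} (hd : d ∣ 43890) (hne : d ≠ 43890) :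
    ∃ M ∈ [21945, 14630, 8778, 6270, 3990, 2310], d ∣ M := by
  obtain ⟨c, hc⟩ := hd
  have hc1 : c ≠ 1 := fun h => hne (by rw [h, mul_one] at hc; exact hc.symm)
  obtain ⟨p, hp, hpc⟩ := Nat.exists_prime_and_dvd hc1
  obtain ⟨e, rfl⟩ := hpc
  have hpd : p ∣ 43890 := ⟨d * e, by rw [hc]; ring⟩
  have hde : d ∣ 43890 / p := ⟨e, Nat.div_eq_of_eq_mul_left hp.pos (by rw [hc]; ring)⟩
  have h6 : p = 2 ∨ p = 3 ∨ p = 5 ∨ p = 7 ∨ p = 11 ∨ p = 19 := by
    have hp' : p ∣ 2 * (3 * (5 * (7 * (11 * 19)))) := by norm_num; exact hpd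
    rcases hp.dvd_mul.mp hp' with h | h
    · exact Or.inl ((Nat.prime_dvd_prime_iff_eq hp Nat.prime_two).mp h)
    rcases hp.dvd_mul.mp h with h | h
    · exact Or.inr (Or.inl ((Nat.prime_dvd_prime_iff_eq hp Nat.prime_three).mp h))
    rcases hp.dvd_mul.mp h with h | h
    · exact Or.inr (Or.inr (Or.inl ((Nat.prime_dvd_prime_iff_eq hp Nat.prime_five).mp h)))
    rcases hp.dvd_mul.mp h with h | h
    · exact Or.inr (Or.inr (Or.inr (Or.inl
        ((Nat.prime_dvd_prime_iff_eq hp (by norm_num : Nat.Prime 7)).mp h))))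
    rcases hp.dvd_mul.mp h with h | h
    · exact Or.inr (Or.inr (Or.inr (Or.inr (Or.inl
        ((Nat.prime_dvd_prime_iff_eq hp (by norm_num : Nat.Prime 11)).mp h)))))
    · exact Or.inr (Or.inr (Or.inr (Or.inr (Or.inr
        ((Nat.prime_dvd_prime_iff_eq hp (by norm_num : Nat.Prime 19)).mp h)))))
  refine ⟨43890 / p, ?_, hde⟩
  rcases h6 with rfl | rfl | rfl | rfl | rfl | rfl <;> simp

theorem orderOf_four (a b c d : J) :
    orderOf (a, b, c, d) = Nat.lcm (orderOf a) (Nat.lcm (orderOf b) (Nat.lcm (orderOf c) (orderOf d))) := by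
  rw [Prod.orderOf, Prod.orderOf, Prod.orderOf]

theorem range_orderOf_four :
    Set.range (orderOf : J × J × J × J → ℕ) = {n : ℕ | n ∣ 43890 ∧ n ≠ 43890} := by
  ext n
  constructor
  · rintro ⟨⟨a, b, c, d⟩, rfl⟩
    rw [orderOf_four]
    have key : allFrom (fun k =>
        let l := [1, 2, 3, 5, 6, 7, 10, 11, 15, 19]
        let m := Nat.lcm (l.getD (k % 10) 1) (Nat.lcm (l.getD (k / 10 % 10) 1)
          (Nat.lcm (l.getD (k / 100 % 10) 1) (l.getD (k / 1000) 1)))
        (43890 % m == 0) && !(m == 43890)) 0 10000 = true := by decide +kernel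
    have hi : ∀ x : J, ∃ i, i < 10 ∧ [1, 2, 3, 5, 6, 7, 10, 11, 15, 19].getD i 1 = orderOf x := by
      intro x
      obtain ⟨i, hi, e⟩ := List.getElem_of_mem (orderOf_mem x)
      exact ⟨i, hi, by rw [List.getD_eq_getElem _ _ hi, e]⟩
    obtain ⟨i, hi1, ei⟩ := hi a
    obtain ⟨j, hj1, ej⟩ := hi b
    obtain ⟨k, hk1, ek⟩ := hi c
    obtain ⟨l, hl1, el⟩ := hi d
    have h := allFrom_zero key (show i + 10 * j + 100 * k + 1000 * l < 10000 by omega)
    simp only [show (i + 10 * j + 100 * k + 1000 * l) % 10 = i by omega,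
      show (i + 10 * j + 100 * k + 1000 * l) / 10 % 10 = j by omega,
      show (i + 10 * j + 100 * k + 1000 * l) / 100 % 10 = k by omega,
      show (i + 10 * j + 100 * k + 1000 * l) / 1000 = l by omega,
      ei, ej, ek, el, Bool.and_eq_true, beq_iff_eq, Bool.not_eq_true', beq_eq_false_iff_ne] at h
    exact ⟨Nat.dvd_of_mod_eq_zero h.1, h.2⟩
  · rintro ⟨hd, hne⟩
    obtain ⟨x6, h6⟩ := exists_orderOf 6 (by simp)
    obtain ⟨x10, h10⟩ := exists_orderOf 10 (by simp)
    obtain ⟨x15, h15⟩ := exists_orderOf 15 (by simp)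
    obtain ⟨x7, h7⟩ := exists_orderOf 7 (by simp)
    obtain ⟨x11, h11⟩ := exists_orderOf 11 (by simp)
    obtain ⟨x19, h19⟩ := exists_orderOf 19 (by simp)
    have hex : ∀ M ∈ [21945, 14630, 8778, 6270, 3990, 2310], ∃ q : J × J × J × J, orderOf q = M := by
      intro M hM
      fin_cases hM
      · exact ⟨(x7, x11, x19, x15), by rw [orderOf_four, h7, h11, h19, h15]; rfl⟩
      · exact ⟨(x7, x11, x19, x10), by rw [orderOf_four, h7, h11, h19, h10]; rfl⟩
      · exact ⟨(x7, x11, x19, x6), by rw [orderOf_four, h7, h11, h19, h6]; rfl⟩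
      · exact ⟨(x11, x19, x6, x10), by rw [orderOf_four, h11, h19, h6, h10]; rfl⟩
      · exact ⟨(x7, x19, x6, x10), by rw [orderOf_four, h7, h19, h6, h10]; rfl⟩
      · exact ⟨(x7, x11, x6, x10), by rw [orderOf_four, h7, h11, h6, h10]; rfl⟩
    obtain ⟨M, hM, hdM⟩ := dvd_maximal hd hne
    obtain ⟨q, hq⟩ := hex M hM
    exact ⟨q ^ (orderOf q / n), orderOf_pow_orderOf_div (orderOf_pos q).ne' (hq ▸ hdM)⟩

/-- The cyclic group of order 6270. -/
abbrev CycRec : Type := Multiplicative (ZMod 6270)

/-- The augmentation module of the cyclic group, in characteristic seven. -/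
def augModule : AddSubgroup (ZMod 6270 → ZMod 7) where
  carrier := {f | ∑ x, f x = 0}
  add_mem' {a b} ha hb := by
    simp only [Set.mem_ofPred_eq, Pi.add_apply, Finset.sum_add_distrib] at ha hb ⊢
    rw [ha, hb, add_zero]
  zero_mem' := by simp
  neg_mem' {a} ha := by
    simp only [Set.mem_ofPred_eq, Pi.neg_apply, Finset.sum_neg_distrib] at ha ⊢
    rw [ha, neg_zero]

theorem mem_augModule {f : ZMod 6270 → ZMod 7} : f ∈ augModule ↔ ∑ x, f x = 0 := Iff.rfl

/-- Translation on the module. -/
def shiftAut (N : ℕ) (a : ZMod 6270) : AddAut (Fin N → augModule) where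
  toFun f i := ⟨fun x => (f i : ZMod 6270 → ZMod 7) (x - a), by
    rw [mem_augModule, ← mem_augModule.1 (f i).2]
    exact Equiv.sum_comp (Equiv.subRight a) (f i : ZMod 6270 → ZMod 7)⟩
  invFun f i := ⟨fun x => (f i : ZMod 6270 → ZMod 7) (x + a), by
    rw [mem_augModule, ← mem_augModule.1 (f i).2]
    exact Equiv.sum_comp (Equiv.addRight a) (f i : ZMod 6270 → ZMod 7)⟩
  left_inv f := by ext i x; simp
  right_inv f := by ext i x; simp
  map_add' f g := by ext i x; simp

/-- The action by translations. -/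
def shiftHom (N : ℕ) : CycRec →* MulAut (Multiplicative (Fin N → augModule)) where
  toFun g := AddEquiv.toMultiplicative (shiftAut N g.toAdd)
  map_one' := by
    ext f
    apply Multiplicative.toAdd.injective
    ext i x
    simp [shiftAut]
  map_mul' g h := by
    ext f
    apply Multiplicative.toAdd.injective
    ext i x
    simp [shiftAut, MulAut.mul_apply, sub_sub, add_comm]

/-- The groups with the same element orders. -/
abbrev RecGroup (N : ℕ) : Type := Multiplicative (Fin N → augModule) ⋊[shiftHom N] CycRec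

theorem pow_seven_eq_one {N : ℕ} (v : Multiplicative (Fin N → augModule)) : v ^ 7 = 1 := by
  apply Multiplicative.toAdd.injective
  ext i x
  simp [show (7 : ZMod 7) = 0 from rfl]

theorem shiftHom_apply {N : ℕ} (g : CycRec) (v : Multiplicative (Fin N → augModule)) (i : Fin N)
    (x : ZMod 6270) : ((shiftHom N g v).toAdd i : ZMod 6270 → ZMod 7) x =
      (v.toAdd i : ZMod 6270 → ZMod 7) (x - g.toAdd) := rfl

theorem orderOf_recGroup {N : ℕ} (x : RecGroup N) : orderOf x ∣ 43890 ∧ orderOf x ≠ 43890 := by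
  set o := orderOf x.right with ho
  have ho' : o ∣ 6270 := by
    have := orderOf_dvd_natCard x.right
    rwa [Nat.card_eq_fintype_card, Fintype.card_multiplicative, ZMod.card] at this
  have hr : (x ^ o).right = 1 := by
    rw [show (x ^ o).right = SemidirectProduct.rightHom (x ^ o) from rfl, map_pow]
    exact pow_orderOf_eq_one x.right
  have hx : x ^ o = SemidirectProduct.inl (x ^ o).left :=
    SemidirectProduct.ext (by simp) (by simp [hr])
  have h7 : x ^ (7 * o) = 1 := by
    rw [mul_comm, pow_mul, hx, ← map_pow, pow_seven_eq_one, map_one]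
  have hd : orderOf x ∣ 7 * o := orderOf_dvd_of_pow_eq_one h7
  refine ⟨hd.trans ((Nat.mul_dvd_mul_left 7 ho').trans (by norm_num)), fun he => ?_⟩
  rw [he] at hd
  have ho6 : o = 6270 := by
    refine Nat.dvd_antisymm ho' ?_
    exact Nat.dvd_of_mul_dvd_mul_left (by norm_num : 0 < 7) hd
  -- the power is fixed by a generator
  have hc : x * SemidirectProduct.inl (x ^ o).left = SemidirectProduct.inl (x ^ o).left * x := by
    rw [← hx]; exact (Commute.self_pow x o).eq
  have hfix : shiftHom N x.right (x ^ o).left = (x ^ o).left := by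
    have h := congrArg SemidirectProduct.left hc
    simp only [SemidirectProduct.mul_left, SemidirectProduct.left_inl, SemidirectProduct.right_inl,
      map_one, MulAut.one_apply] at h
    rw [mul_comm ((x ^ o).left)] at h
    exact mul_left_cancel h
  have hgen : Function.Surjective fun m : ℕ => m • (x.right).toAdd := by
    intro y
    obtain ⟨m, hm⟩ := mem_powers_iff_mem_zpowers.2
      (show Multiplicative.ofAdd y ∈ Subgroup.zpowers x.right from by
        have htop : Subgroup.zpowers x.right = ⊤ := Subgroup.eq_top_of_card_eq _ (by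
          rw [Nat.card_zpowers, ← ho, ho6, Nat.card_eq_fintype_card, Fintype.card_multiplicative, ZMod.card])
        rw [htop]; trivial)
    exact ⟨m, by simpa using congrArg Multiplicative.toAdd hm⟩
  have hzero : (x ^ o).left = 1 := by
    apply Multiplicative.toAdd.injective
    ext i y
    have hconst : ∀ z, ((x ^ o).left.toAdd i : ZMod 6270 → ZMod 7) z =
        ((x ^ o).left.toAdd i : ZMod 6270 → ZMod 7) 0 := by
      intro z
      obtain ⟨m, rfl⟩ := hgen z
      induction m with
      | zero => simp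
      | succ m ih =>
        have e := shiftHom_apply x.right (x ^ o).left i ((m + 1) • x.right.toAdd)
        rw [hfix, succ_nsmul, add_sub_cancel_right] at e
        rw [← ih]
        simp only [succ_nsmul]
        exact e
    haveI : Fact (Nat.Prime 7) := ⟨by norm_num⟩
    have hs := mem_augModule.1 ((x ^ o).left.toAdd i).2
    rw [Finset.sum_congr rfl fun z _ => hconst z, Finset.sum_const, Finset.card_univ, ZMod.card,
      nsmul_eq_mul, mul_eq_zero] at hs
    have h0 := hs.resolve_left (by rw [ZMod.natCast_eq_zero_iff]; norm_num)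
    rw [hconst y, h0]
    rfl
  have : x ^ o = 1 := by rw [hx, hzero, map_one]
  have := orderOf_dvd_of_pow_eq_one this
  rw [he, ho6] at this
  norm_num at this

theorem exists_orderOf_recGroup {N : ℕ} (hN : 0 < N) {d : ℕ} (hd : d ∣ 43890) (hne : d ≠ 43890) :
    ∃ x : RecGroup N, orderOf x = d := by
  have hcyc : ∀ e : ℕ, e ∣ 6270 → ∃ g : CycRec, orderOf g = e := fun e he => by
    have h1 : orderOf (Multiplicative.ofAdd (1 : ZMod 6270)) = 6270 := by
      rw [orderOf_ofAdd_eq_addOrderOf, ZMod.addOrderOf_one]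
    exact ⟨_ ^ (orderOf (Multiplicative.ofAdd (1 : ZMod 6270)) / e),
      orderOf_pow_orderOf_div (orderOf_pos _).ne' (h1.symm ▸ he)⟩
  by_cases h7 : 7 ∣ d
  · obtain ⟨e, rfl⟩ := h7
    have he : e ∣ 6270 := Nat.dvd_of_mul_dvd_mul_left (by norm_num : 0 < 7) (by simpa using hd)
    obtain ⟨k, hk⟩ := he
    have hk1 : k ≠ 1 := fun h => hne (by rw [h, mul_one] at hk; omega)
    haveI : NeZero k := ⟨fun h => by rw [h, mul_zero] at hk; norm_num at hk⟩
    haveI : Fact (1 < k) := ⟨by have := NeZero.ne k; omega⟩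
    obtain ⟨g, hg⟩ := hcyc e ⟨k, hk⟩
    have hke : k ∣ 6270 := ⟨e, by rw [hk, mul_comm]⟩
    -- the translation is invisible modulo `k`
    have hgk : (ZMod.castHom hke (ZMod k)) g.toAdd = 0 := by
      obtain ⟨a, ha⟩ := ZMod.natCast_zmod_surjective g.toAdd
      have h1 : (e • (a : ZMod 6270)) = 0 := by
        rw [ha, ← hg, ← toAdd_pow, pow_orderOf_eq_one]; rfl
      rw [nsmul_eq_mul, ← Nat.cast_mul, ZMod.natCast_eq_zero_iff] at h1
      rw [← ha, map_natCast, ZMod.natCast_eq_zero_iff]
      have he0 : 0 < e := Nat.pos_of_ne_zero fun h => by rw [h, zero_mul] at hk; norm_num at hk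
      exact Nat.dvd_of_mul_dvd_mul_left he0 (hk ▸ h1)
    let F : ZMod 6270 → ZMod 7 := fun x => if (ZMod.castHom hke (ZMod k)) x = 0 then 1 else 0
    let w : augModule := ⟨fun x => F x - F (x - 1), by
      rw [mem_augModule, Finset.sum_sub_distrib, sub_eq_zero]
      exact (Equiv.sum_comp (Equiv.subRight (1 : ZMod 6270)) F).symm⟩
    let v : Multiplicative (Fin N → augModule) := Multiplicative.ofAdd fun _ => w
    have hfix : shiftHom N g v = v := by
      apply Multiplicative.toAdd.injective
      ext i x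
      rw [shiftHom_apply]
      show F (x - g.toAdd) - F (x - g.toAdd - 1) = F x - F (x - 1)
      simp only [F, map_sub, map_one, hgk, sub_zero]
    have hv1 : v ≠ 1 := fun h => by
      have h0 := congrArg (fun z => (z.toAdd ⟨0, hN⟩ : ZMod 6270 → ZMod 7) 0) h
      have h1 : F 0 - F (0 - 1) = 0 := h0
      simp only [F, map_zero, map_sub, map_one, zero_sub, neg_eq_zero, one_ne_zero, if_true, if_false,
        sub_zero] at h1
      rw [map_neg, map_one, if_neg (neg_ne_zero.mpr (one_ne_zero' (ZMod k))), sub_zero] at h1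
      exact absurd h1 (by decide)
    haveI : Fact (Nat.Prime 7) := ⟨by norm_num⟩
    have hv : orderOf (SemidirectProduct.inl v : RecGroup N) = 7 := by
      rw [orderOf_injective _ SemidirectProduct.inl_injective]
      exact orderOf_eq_prime (pow_seven_eq_one v) hv1
    have hgo : orderOf (SemidirectProduct.inr g : RecGroup N) = e := by
      rw [orderOf_injective _ SemidirectProduct.inr_injective, hg]
    have hcomm : Commute (SemidirectProduct.inl v : RecGroup N) (SemidirectProduct.inr g) := by
      have h := SemidirectProduct.inl_aut (φ := shiftHom N) g v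
      rw [hfix, map_inv, eq_mul_inv_iff_mul_eq] at h
      exact h
    refine ⟨SemidirectProduct.inl v * SemidirectProduct.inr g, ?_⟩
    rw [hcomm.orderOf_mul_eq_mul_orderOf_of_coprime ?_, hv, hgo]
    rw [hv, hgo, (by norm_num : Nat.Prime 7).coprime_iff_not_dvd]
    intro h
    exact absurd (h.trans ⟨k, hk⟩) (by norm_num)
  · have hd' : d ∣ 6270 :=
      (((by norm_num : Nat.Prime 7).coprime_iff_not_dvd.2 h7).symm).dvd_of_dvd_mul_left
        (show d ∣ 7 * 6270 from hd)
    obtain ⟨g, hg⟩ := hcyc d hd'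
    exact ⟨SemidirectProduct.inr g, by rw [orderOf_injective _ SemidirectProduct.inr_injective, hg]⟩

theorem non_recognisable (N : ℕ) : ∃ (H : Type) (_ : Group H) (_ : Fintype H), N < Fintype.card H ∧
    Set.range (orderOf : H → ℕ) = Set.range (orderOf : J × J × J × J → ℕ) := by
  classical
  haveI : Finite (RecGroup (N + 1)) := Finite.of_equiv _ SemidirectProduct.equivProd.symm
  letI := Fintype.ofFinite (RecGroup (N + 1))
  refine ⟨RecGroup (N + 1), inferInstance, inferInstance, ?_, ?_⟩
  · rw [← Nat.card_eq_fintype_card, SemidirectProduct.card,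
      Nat.card_congr (Multiplicative.toAdd (α := Fin (N + 1) → augModule)), Nat.card_fun, Nat.card_fin]
    have h2 : 2 ≤ Nat.card augModule := by
      refine Finite.one_lt_card_iff_nontrivial.2 ⟨⟨⟨Pi.single 0 1 - Pi.single 1 1, ?_⟩, 0, ?_⟩⟩
      · simp [mem_augModule, Finset.sum_sub_distrib]
      · intro h
        have := congrFun (congrArg Subtype.val h) 0
        simp [show (0 : ZMod 6270) ≠ 1 by decide] at this
        exact absurd this (by decide)
    have h3 : N + 1 < 2 ^ (N + 1) := Nat.lt_two_pow_self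
    have h4 := Nat.pow_le_pow_left h2 (N + 1)
    have h5 : 0 < Nat.card CycRec := Nat.card_pos
    calc N < Nat.card augModule ^ (N + 1) := by omega
      _ ≤ _ := Nat.le_mul_of_pos_right _ h5
  · rw [range_orderOf_four]
    ext d
    exact ⟨by rintro ⟨x, rfl⟩; exact orderOf_recGroup x,
      fun h => exists_orderOf_recGroup (Nat.succ_pos N) h.1 h.2⟩

end Cfsg.Agent.Janko1
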